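import Cfsg.Agent.H456.DM.Solv
import Cfsg.Agent.H932.DM.Tools

/-!
# S4907: simple quotients of perfect groups (helper456)

* `exists_quot`: `G` perfect, `p ∣ |G|`, `p ^ 2 ∤ |G|`: `G` has a nonabelian simple quotient of order divisible by `p`;
* `mul_dvd_of_quot`: two simple quotients of different orders: the product of the orders divides `|G|`.
-/

set_option autoImplicit false
set_option linter.unusedSectionVars false

namespace Cfsg.Agent.H456.DM.Quot

open Subgroup
open Cfsg.Agent.Lib.MinNormalNonabelian Cfsg.Agent.Lib.MinNormal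
open Cfsg.Agent.H456.DM.Cover Cfsg.Agent.H456.DM.Solv
open scoped commutatorElement

universe u

/-- the action of a perfect group on a simple normal subgroup is inner -/
theorem quot_of_simple {X : Type u} [Group X] [Finite X] (hX : Group.IsPerfect X) (N : Subgroup X) [N.Normal]
    (hNs : IsSimpleGroup N) (hNna : ¬ ∀ a b : N, a * b = b * a) (hNc : ∀ z ∈ N, (∀ t ∈ N, Commute z t) → z = 1)
    (hSch : Schreier.Basic.Sch N) :
    ∃ (T : Type u) (_ : Group T) (_ : Finite T) (_ : IsSimpleGroup T) (f : X →* T), Function.Surjective f ∧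
      (¬ ∀ a b : T, a * b = b * a) ∧ Nat.card T = Nat.card N := by
  have hconj : Function.Injective (MulAut.conj : N →* MulAut N) := by
    rw [injective_iff_map_eq_one]
    intro z hz
    apply Subtype.ext
    apply hNc z z.2
    intro t ht
    have h1 : z * ⟨t, ht⟩ * z⁻¹ = ⟨t, ht⟩ := by
      have := DFunLike.congr_fun hz (⟨t, ht⟩ : N)
      exact this
    have h2 : z * ⟨t, ht⟩ = ⟨t, ht⟩ * z := mul_inv_eq_iff_eq_mul.1 h1
    exact congrArg Subtype.val h2
  let φ : X →* MulAut N := MulAut.conjNormal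
  have hrange : ⁅φ.range, φ.range⁆ = φ.range := by
    rw [MonoidHom.range_eq_map, ← Subgroup.map_commutator]
    congr 1
    exact hX.commutator_eq_top
  have hle : φ.range ≤ (MulAut.conj : N →* MulAut N).range := hSch φ.range hrange
  let f : X →* (MulAut.conj : N →* MulAut N).range := φ.codRestrict _ (fun g => hle ⟨g, rfl⟩)
  have hf : Function.Surjective f := by
    rintro ⟨_, n, rfl⟩
    refine ⟨n, ?_⟩
    apply Subtype.ext
    show φ (n : X) = MulAut.conj n
    ext x
    show ((MulAut.conjNormal (n : X) x : N) : X) = ((MulAut.conj n x : N) : X)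
    rw [MulAut.conjNormal_apply]
    rfl
  let e : N ≃* (MulAut.conj : N →* MulAut N).range := MonoidHom.ofInjective hconj
  have hTs : IsSimpleGroup (MulAut.conj : N →* MulAut N).range := simple_of_equiv hNs e
  refine ⟨(MulAut.conj : N →* MulAut N).range, inferInstance, inferInstance, hTs, f, hf, ?_,
    (Nat.card_congr e.toEquiv).symm⟩
  intro hcon
  apply hNna
  intro a b
  apply e.injective
  rw [map_mul, map_mul]
  exact hcon _ _

/-- a nonabelian minimal normal subgroup whose order is divisible exactly once by a prime is simple -/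
theorem simple_of_prime {X : Type*} [Group X] [Finite X] (N : Subgroup X) [N.Normal]
    (hmin : ∀ M : Subgroup X, M.Normal → M ≤ N → M = ⊥ ∨ M = N)
    (hna : ¬ ∀ x ∈ N, ∀ y ∈ N, Commute x y) {p : ℕ} (hp : p.Prime) (h1 : p ∣ Nat.card N) (h2 : ¬ p ^ 2 ∣ Nat.card N) :
    IsSimpleGroup N ∧ ∀ z ∈ N, (∀ t ∈ N, Commute z t) → z = 1 := by
  classical
  obtain ⟨hne, hind, hsup, hsimple, hcen, htr⟩ := nonabelian_structure N hmin hna
  have hfin : Finite (minSet N) := inferInstance
  have hft : Fintype (minSet N) := Fintype.ofFinite _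
  have hcomm : Pairwise fun i j : minSet N => ∀ x y : X, x ∈ i.1 → y ∈ j.1 → Commute x y := by
    intro i j hij x y hx hy
    exact commute_of_mem hind (fun S hS => hS.2.2.1) (fun S hS => hS.1) i.2 j.2
      (fun h => hij (Subtype.ext h)) hx hy
  have hinj := Subgroup.injective_noncommPiCoprod_of_iSupIndep (H := fun i : minSet N => i.1) (hcomm := hcomm)
    ((sSupIndep_iff _).1 hind)
  have hrange : (Subgroup.noncommPiCoprod hcomm).range = N := by
    rw [Subgroup.noncommPiCoprod_range]
    exact (sSup_eq_iSup' (minSet N)).symm.trans hsup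
  have e1 : Nat.card (∀ i : minSet N, i.1) = Nat.card N :=
    (Nat.card_congr (MonoidHom.ofInjective hinj).toEquiv).trans (by rw [hrange])
  have e2 : Nat.card (∀ i : minSet N, i.1) = ∏ i : minSet N, Nat.card i.1 := Nat.card_pi
  rw [e1] at e2
  have heq : ∀ i j : minSet N, Nat.card i.1 = Nat.card j.1 := by
    intro i j
    obtain ⟨g, hg⟩ := htr i.1 i.2 j.1 j.2
    rw [hg]
    exact Nat.card_congr (i.1.equivMapOfInjective _ (MulAut.conj g).injective).toEquiv
  have hpi : ∀ i : minSet N, p ∣ Nat.card i.1 := by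
    intro i
    rw [e2] at h1
    obtain ⟨j, -, hj⟩ := (Prime.dvd_finsetProd_iff hp.prime _).1 h1
    rw [heq i j]
    exact hj
  have hk : Fintype.card (minSet N) < 2 := by
    by_contra hlt
    push Not at hlt
    apply h2
    refine (pow_dvd_pow p hlt).trans ?_
    have := Finset.prod_dvd_prod_of_dvd (fun _ : minSet N => p) (fun i : minSet N => Nat.card i.1)
      (s := Finset.univ) (fun i _ => hpi i)
    rw [Finset.prod_const, Finset.card_univ, ← e2] at this
    exact this
  obtain ⟨T, hT⟩ := hne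
  have hone : ∀ S ∈ minSet N, S = T := by
    intro S hS
    have : Subsingleton (minSet N) := by
      rw [← Fintype.card_le_one_iff_subsingleton]
      omega
    exact congrArg Subtype.val (Subsingleton.elim (⟨S, hS⟩ : minSet N) ⟨T, hT⟩)
  have hNT : T = N := by
    rw [← hsup]
    apply le_antisymm
    · exact le_sSup hT
    · exact sSup_le fun S hS => (hone S hS).le
  subst hNT
  exact ⟨hsimple T hT, hcen T hT⟩

/-- **A simple quotient of order divisible by `p`** -/
theorem exists_quot {G : Type u} [Group G] [Finite G]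
    (hSch : ∀ (K : Type u) [Group K] [Finite K], IsSimpleGroup K → (¬ ∀ a b : K, a * b = b * a) → Schreier.Basic.Sch K)
    (hG : Group.IsPerfect G) {p : ℕ} [hp : Fact p.Prime] (h1 : p ∣ Nat.card G) (h2 : ¬ p ^ 2 ∣ Nat.card G) :
    ∃ (T : Type u) (_ : Group T) (_ : Finite T) (_ : IsSimpleGroup T) (f : G →* T), Function.Surjective f ∧
      (¬ ∀ a b : T, a * b = b * a) ∧ p ∣ Nat.card T := by
  classical
  obtain ⟨L, ⟨hLn, hLp⟩, hLmax⟩ : ∃ L : Subgroup G, (L.Normal ∧ p ∣ L.index) ∧
      ∀ K : Subgroup G, (K.Normal ∧ p ∣ K.index) → ¬ L < K := by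
    obtain ⟨A', hA'⟩ := (Set.toFinite {B : Subgroup G | B.Normal ∧ p ∣ B.index}).exists_maximal
      ⟨⊥, inferInstance, by rw [Subgroup.index_bot]; exact h1⟩
    exact ⟨A', hA'.1, fun K hK hlt => absurd (hA'.2 hK hlt.le) (not_le_of_gt hlt)⟩
  let π : G →* G ⧸ L := QuotientGroup.mk' L
  have hπ : Function.Surjective π := QuotientGroup.mk'_surjective L
  have hker : π.ker = L := QuotientGroup.ker_mk' L
  have hX : Group.IsPerfect (G ⧸ L) := Group.IsPerfect.ofSurjective hπ
  have hXp : p ∣ Nat.card (G ⧸ L) := hLp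
  have hX2 : ¬ p ^ 2 ∣ Nat.card (G ⧸ L) := fun h => h2 (h.trans (Subgroup.card_quotient_dvd_card L))
  have hnt : Nontrivial (G ⧸ L) := by
    rw [← Finite.one_lt_card_iff_nontrivial]
    exact lt_of_lt_of_le hp.out.one_lt (Nat.le_of_dvd Nat.card_pos hXp)
  obtain ⟨N, ⟨hNn, hNb⟩, hNmin⟩ : ∃ N : Subgroup (G ⧸ L), (N.Normal ∧ N ≠ ⊥) ∧
      ∀ K : Subgroup (G ⧸ L), (K.Normal ∧ K ≠ ⊥) → ¬ K < N := by
    obtain ⟨A', hA'⟩ := (Set.toFinite {B : Subgroup (G ⧸ L) | B.Normal ∧ B ≠ ⊥}).exists_minimal
      ⟨⊤, inferInstance, top_ne_bot⟩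
    exact ⟨A', hA'.1, fun K hK hlt => absurd (hA'.2 hK hlt.le) (not_le_of_gt hlt)⟩
  have hmin : ∀ K : Subgroup (G ⧸ L), K.Normal → K ≤ N → K = ⊥ ∨ K = N := by
    intro K hK hKN
    by_cases hb : K = ⊥
    · exact Or.inl hb
    · right
      by_contra hne
      exact hNmin K ⟨hK, hb⟩ (lt_of_le_of_ne hKN hne)
  have hNi : ¬ p ∣ N.index := by
    intro hd
    apply hLmax (N.comap π) ⟨hNn.comap π, by rw [Subgroup.index_comap_of_surjective _ hπ]; exact hd⟩
    refine lt_of_le_of_ne (hker.ge.trans (Subgroup.ker_le_comap π N)) ?_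
    intro h
    apply hNb
    have h3 : N = (N.comap π).map π := (Subgroup.map_comap_eq_self_of_surjective hπ N).symm
    rw [h3, ← h, Subgroup.map_eq_bot_iff, hker]
  have hNp : p ∣ Nat.card N := by
    rw [← Subgroup.card_mul_index N] at hXp
    exact (hp.out.dvd_mul.1 hXp).resolve_right hNi
  have hN2 : ¬ p ^ 2 ∣ Nat.card N := fun h => hX2 (h.trans (Subgroup.card_subgroup_dvd_card N))
  have hna : ¬ ∀ x ∈ N, ∀ y ∈ N, Commute x y := by
    intro hab
    obtain ⟨q, hq, hqN, -⟩ := abelian_structure N hNb hmin hab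
    have hq' : Fact q.Prime := ⟨hq⟩
    obtain ⟨k, hk⟩ := IsPGroup.iff_card.1 hqN
    have hqp : p = q := by
      rw [hk] at hNp
      exact (Nat.prime_dvd_prime_iff_eq hp.out hq).1 (hp.out.dvd_of_dvd_pow hNp)
    subst hqp
    have hk1 : k = 1 := by
      have hlt : k < 2 := by
        by_contra hlt
        push Not at hlt
        exact hN2 (by rw [hk]; exact pow_dvd_pow p hlt)
      have : k ≠ 0 := by
        rintro rfl
        rw [hk, pow_zero] at hNp
        exact hp.out.one_lt.ne' (Nat.dvd_one.1 hNp)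
      omega
    rw [hk1, pow_one] at hk
    exact H932.DM.false_of_normal_sylow hX.commutator_eq_top hX2 N hk
  obtain ⟨hNs, hNc⟩ := simple_of_prime N hmin hna hp.out hNp hN2
  have hNna : ¬ ∀ a b : N, a * b = b * a := fun hcon => hna fun x hx y hy =>
    congrArg Subtype.val (hcon ⟨x, hx⟩ ⟨y, hy⟩)
  obtain ⟨T, _, _, hTs, f, hf, hT, hc⟩ := quot_of_simple hX N hNs hNna hNc (hSch N hNs hNna)
  exact ⟨T, inferInstance, inferInstance, hTs, f.comp π, hf.comp hπ, hT, by rw [hc]; exact hNp⟩

/-- **Two simple quotients of different orders** -/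
theorem mul_dvd_of_quot {G : Type*} [Group G] [Finite G] {K T : Type*} [Group K] [Group T] [IsSimpleGroup K]
    [IsSimpleGroup T] {f : G →* K} {g : G →* T} (hf : Function.Surjective f) (hg : Function.Surjective g)
    (hne : Nat.card K ≠ Nat.card T) : Nat.card K * Nat.card T ∣ Nat.card G := by
  have hcK : f.ker.index = Nat.card K := by rw [Subgroup.index_ker, MonoidHom.range_eq_top.2 hf, Subgroup.card_top]
  have hcT : g.ker.index = Nat.card T := by rw [Subgroup.index_ker, MonoidHom.range_eq_top.2 hg, Subgroup.card_top]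
  have h1 : (g.ker.map f).Normal := Subgroup.Normal.map inferInstance f hf
  rcases h1.eq_bot_or_eq_top with h | h
  · exfalso
    have hle : g.ker ≤ f.ker := (Subgroup.map_eq_bot_iff _).1 h
    have h2 : (f.ker.map g).Normal := Subgroup.Normal.map inferInstance g hg
    rcases h2.eq_bot_or_eq_top with h3 | h3
    · have hle' : f.ker ≤ g.ker := (Subgroup.map_eq_bot_iff _).1 h3
      exact hne (by rw [← hcK, ← hcT, le_antisymm hle hle'])
    · have h4 : f.ker = ⊤ := by
        have h5 := Subgroup.comap_map_eq g f.ker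
        rw [h3, Subgroup.comap_top, sup_eq_left.2 hle] at h5
        exact h5.symm
      rw [h4, Subgroup.index_top] at hcK
      have := IsSimpleGroup.toNontrivial (G := K)
      have : Finite K := Finite.of_surjective f hf
      exact absurd hcK Finite.one_lt_card.ne
  · have h3 : Nat.card K ∣ Nat.card g.ker := by
      have h4 := Subgroup.card_map_dvd g.ker f
      rw [h, Subgroup.card_top] at h4
      exact h4
    rw [← Subgroup.card_mul_index g.ker, hcT]
    exact Nat.mul_dvd_mul_right h3 _

end Cfsg.Agent.H456.DM.Quot
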