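import Cfsg.Agent.H456.DM.Cover
import Cfsg.Agent.Schreier.Basic
import Cfsg.Agent.H168.Rad
import Mathlib.GroupTheory.NoncommPiCoprod

/-!
# S4907, DM19 (a): normal subgroups of perfect groups are solvable (helper456)
-/

set_option autoImplicit false
set_option linter.unusedSectionVars false

namespace Cfsg.Agent.H456.DM.Solv

open Subgroup
open Cfsg.Agent.Lib.MinNormalNonabelian Cfsg.Agent.Lib.MinNormal
open Cfsg.Agent.H456.DM.Cover
open scoped commutatorElement

universe u

section

variable {G : Type*} [Group G] [Finite G]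

/-- a non-solvable normal subgroup contains a chief factor `D / L` with `D` perfect -/
theorem exists_perfect (M : Subgroup G) (hMn : M.Normal) (hM : ¬ Group.IsSolvable M) :
    ∃ D L : Subgroup G, D.Normal ∧ D ≤ M ∧ ⁅D, D⁆ = D ∧ L.Normal ∧ L < D ∧
      ∀ K : Subgroup G, K.Normal → L ≤ K → K ≤ D → K = L ∨ K = D := by
  obtain ⟨D, ⟨hDn, hDM, hDs⟩, hmin⟩ : ∃ D : Subgroup G, (D.Normal ∧ D ≤ M ∧ ¬ Group.IsSolvable D) ∧
      ∀ K : Subgroup G, (K.Normal ∧ K ≤ M ∧ ¬ Group.IsSolvable K) → ¬ K < D := by
    obtain ⟨A', hA'⟩ := (Set.toFinite {B : Subgroup G | B.Normal ∧ B ≤ M ∧ ¬ Group.IsSolvable B}).exists_minimal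
      ⟨M, hMn, le_rfl, hM⟩
    exact ⟨A', hA'.1, fun K hK hlt => absurd (hA'.2 hK hlt.le) (not_le_of_gt hlt)⟩
  have hD1 : D ≠ ⊥ := by
    rintro rfl
    exact hDs inferInstance
  have hperf : ⁅D, D⁆ = D := by
    by_contra hne
    have hlt : (⁅D, D⁆ : Subgroup G) < D := lt_of_le_of_ne (Subgroup.commutator_le_self D) hne
    have hs : Group.IsSolvable (⁅D, D⁆ : Subgroup G) := by
      by_contra hcon
      exact hmin _ ⟨inferInstance, hlt.le.trans hDM, hcon⟩ hlt
    apply hDs
    have h1 : (⁅D, D⁆ : Subgroup G) = (_root_.commutator D).map D.subtype := (Subgroup.map_subtype_commutator D).symm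
    have h2 : Group.IsSolvable (_root_.commutator D) := by
      have e : (_root_.commutator D) ≃* ((_root_.commutator D).map D.subtype : Subgroup G) :=
        (_root_.commutator D).equivMapOfInjective D.subtype D.subtype_injective
      rw [h1] at hs
      exact Group.isSolvable_of_isSolvable_injective (f := e.toMonoidHom) e.injective
    exact Group.isSolvable_of_ker_le_range (_root_.commutator D).subtype (Abelianization.of)
      (by rw [Subgroup.range_subtype]; rw [Abelianization.ker_of])
  obtain ⟨L, ⟨hLn, hLD⟩, hLmax⟩ : ∃ L : Subgroup G, (L.Normal ∧ L < D) ∧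
      ∀ K : Subgroup G, (K.Normal ∧ K < D) → ¬ L < K := by
    obtain ⟨A', hA'⟩ := (Set.toFinite {B : Subgroup G | B.Normal ∧ B < D}).exists_maximal
      ⟨⊥, inferInstance, bot_lt_iff_ne_bot.2 hD1⟩
    exact ⟨A', hA'.1, fun K hK hlt => absurd (hA'.2 hK hlt.le) (not_le_of_gt hlt)⟩
  refine ⟨D, L, hDn, hDM, hperf, hLn, hLD, ?_⟩
  intro K hK hLK hKD
  by_cases h1 : K = D
  · exact Or.inr h1
  · left
    by_contra h2
    exact hLmax K ⟨hK, lt_of_le_of_ne hKD h1⟩ (lt_of_le_of_ne hLK (Ne.symm h2))

/-- a product of `k` commuting nonabelian simple groups has order at least `60 ^ k` -/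
theorem pow_le_card (N : Subgroup G) [N.Normal] (hind : sSupIndep (minSet N))
    (hsimple : ∀ T ∈ minSet N, IsSimpleGroup T)
    (hcen : ∀ T ∈ minSet N, ∀ z ∈ T, (∀ t ∈ T, Commute z t) → z = 1) :
    60 ^ Nat.card (minSet N) ≤ Nat.card N := by
  classical
  have hfin : Finite (minSet N) := inferInstance
  have hft : Fintype (minSet N) := Fintype.ofFinite _
  have hcomm : Pairwise fun i j : minSet N => ∀ x y : G, x ∈ i.1 → y ∈ j.1 → Commute x y := by
    intro i j hij x y hx hy
    exact commute_of_mem hind (fun S hS => hS.2.2.1) (fun S hS => hS.1) i.2 j.2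
      (fun h => hij (Subtype.ext h)) hx hy
  have hinj := Subgroup.injective_noncommPiCoprod_of_iSupIndep (H := fun i : minSet N => i.1) (hcomm := hcomm)
    ((sSupIndep_iff _).1 hind)
  have hle : (Subgroup.noncommPiCoprod hcomm).range ≤ N := by
    rw [Subgroup.noncommPiCoprod_range]
    exact iSup_le fun i => i.2.1
  have h1 : Nat.card (∀ i : minSet N, i.1) = Nat.card (Subgroup.noncommPiCoprod hcomm).range :=
    Nat.card_congr (MonoidHom.ofInjective hinj).toEquiv
  have h2 : Nat.card (∀ i : minSet N, i.1) = ∏ i : minSet N, Nat.card i.1 := Nat.card_pi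
  have h3 : ∏ _i : minSet N, 60 ≤ ∏ i : minSet N, Nat.card i.1 := by
    refine Finset.prod_le_prod' fun i _ => ?_
    apply H168.NoSolv.sixty_le
    intro hs
    have hsi := hsimple i.1 i.2
    have hnt : Nontrivial i.1 := hsi.toNontrivial
    obtain ⟨z, hz⟩ := exists_ne (1 : i.1)
    apply hz
    apply Subtype.ext
    apply hcen i.1 i.2 z z.2
    intro t ht
    have hc := (IsSimpleGroup.comm_iff_isSolvable (G := i.1)).2 hs z ⟨t, ht⟩
    exact congrArg Subtype.val hc
  rw [Finset.prod_const, Finset.card_univ, ← Nat.card_eq_fintype_card] at h3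
  exact h3.trans (by rw [← h2, h1]; exact Subgroup.card_le_of_le hle)

/-- **the structure**: with few factors, `G` perfect fixes them, so there is just one -/
theorem simple_of_small {X : Type*} [Group X] [Finite X] (hX : Group.IsPerfect X) (N : Subgroup X) [N.Normal]
    (hmin : ∀ M : Subgroup X, M.Normal → M ≤ N → M = ⊥ ∨ M = N)
    (hna : ¬ ∀ x ∈ N, ∀ y ∈ N, Commute x y) (hbig : Nat.card N < 60 ^ 5) :
    IsSimpleGroup N ∧ ∀ z ∈ N, (∀ t ∈ N, Commute z t) → z = 1 := by
  classical
  obtain ⟨hne, hind, hsup, hsimple, hcen, htr⟩ := nonabelian_structure N hmin hna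
  have hk : Nat.card (minSet N) < 5 := by
    have h1 := (pow_le_card N hind hsimple hcen).trans_lt hbig
    exact (Nat.pow_lt_pow_iff_right (by norm_num)).1 h1
  let act : X →* Equiv.Perm (minSet N) :=
    { toFun := fun g =>
        { toFun := fun T => ⟨T.1.map (MulAut.conj g).toMonoidHom, map_conj_mem_minSet T.2 g⟩
          invFun := fun T => ⟨T.1.map (MulAut.conj g⁻¹).toMonoidHom, map_conj_mem_minSet T.2 g⁻¹⟩
          left_inv := fun T => Subtype.ext (by
            show (T.1.map (MulAut.conj g).toMonoidHom).map (MulAut.conj g⁻¹).toMonoidHom = T.1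
            rw [map_conj_map_conj, inv_mul_cancel, map_conj_one])
          right_inv := fun T => Subtype.ext (by
            show (T.1.map (MulAut.conj g⁻¹).toMonoidHom).map (MulAut.conj g).toMonoidHom = T.1
            rw [map_conj_map_conj, mul_inv_cancel, map_conj_one]) }
      map_one' := by
        ext T : 2
        exact map_conj_one T.1
      map_mul' := fun a b => by
        ext T : 2
        exact (map_conj_map_conj a b T.1).symm }
  have hsolv : Group.IsSolvable (Equiv.Perm (minSet N)) := by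
    by_contra hcon
    have h1 := H168.NoSolv.sixty_le hcon
    have hft : Fintype (minSet N) := Fintype.ofFinite _
    rw [Nat.card_eq_fintype_card, Fintype.card_perm, ← Nat.card_eq_fintype_card] at h1
    have h2 : (Nat.card (minSet N)).factorial ≤ Nat.factorial 4 := Nat.factorial_le (by omega)
    have h3 : Nat.factorial 4 = 24 := rfl
    omega
  have hact : ∀ g, act g = 1 := fun g => eq_one_of_solvable hX act inferInstance g
  obtain ⟨T, hT⟩ := hne
  have hone : ∀ S ∈ minSet N, S = T := by
    intro S hS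
    obtain ⟨g, hg⟩ := htr T hT S hS
    have h1 : act g ⟨T, hT⟩ = ⟨T, hT⟩ := by rw [hact g]; rfl
    rw [hg]
    exact congrArg Subtype.val h1
  have hNT : T = N := by
    rw [← hsup]
    apply le_antisymm
    · exact le_sSup hT
    · exact sSup_le fun S hS => (hone S hS).le
  subst hNT
  exact ⟨hsimple T hT, hcen T hT⟩

/-- **(a), with the Schreier property as a hypothesis** -/
theorem solvable_of_sch {G : Type u} [Group G] [Finite G]
    (hSch : ∀ (K : Type u) [Group K] [Finite K], IsSimpleGroup K → (¬ ∀ a b : K, a * b = b * a) → Schreier.Basic.Sch K)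
    (hG : Group.IsPerfect G) (M : Subgroup G) [hMn : M.Normal]
    (hno : ∀ (T : Type u) [Group T] [Finite T] [IsSimpleGroup T] (f : G →* T), Function.Surjective f →
      (¬ ∀ a b : T, a * b = b * a) → ¬ Nat.card T * Nat.card (G ⧸ M) ∣ Nat.card G)
    (hbig : Nat.card G < 60 ^ 5 * Nat.card (G ⧸ M)) : Group.IsSolvable M := by
  classical
  by_contra hM
  obtain ⟨D, L, hDn, hDM, hDp, hLn, hLD, hchief⟩ := exists_perfect M hMn hM
  let π : G →* G ⧸ L := QuotientGroup.mk' L
  have hπ : Function.Surjective π := QuotientGroup.mk'_surjective L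
  have hker : π.ker = L := QuotientGroup.ker_mk' L
  have hX : Group.IsPerfect (G ⧸ L) := Group.IsPerfect.ofSurjective hπ
  let N : Subgroup (G ⧸ L) := D.map π
  have hNn : N.Normal := hDn.map π hπ
  have hcomap : N.comap π = D := by
    show (D.map π).comap π = D
    rw [Subgroup.comap_map_eq, hker, sup_eq_left]
    exact hLD.le
  have hmin : ∀ K : Subgroup (G ⧸ L), K.Normal → K ≤ N → K = ⊥ ∨ K = N := by
    intro K hK hKN
    have h1 := hchief (K.comap π) (hK.comap π) (hker.ge.trans (Subgroup.ker_le_comap π K))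
      ((Subgroup.comap_mono hKN).trans hcomap.le)
    rw [← Subgroup.map_comap_eq_self_of_surjective hπ K]
    rcases h1 with h1 | h1
    · left
      rw [h1, Subgroup.map_eq_bot_iff, hker]
    · right
      rw [h1]
  have hNne : N ≠ ⊥ := by
    intro h
    have h1 := (Subgroup.map_eq_bot_iff D).1 h
    rw [hker] at h1
    exact absurd h1 (not_le_of_gt hLD)
  have hNp : ⁅N, N⁆ = N := by
    show ⁅D.map π, D.map π⁆ = D.map π
    rw [← Subgroup.map_commutator, hDp]
  have hna : ¬ ∀ x ∈ N, ∀ y ∈ N, Commute x y := by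
    intro hcon
    apply hNne
    rw [← hNp, eq_bot_iff, Subgroup.commutator_le]
    intro x hx y hy
    rw [Subgroup.mem_bot, commutatorElement_eq_one_iff_commute]
    exact hcon x hx y hy
  have hcM : Nat.card M * Nat.card (G ⧸ M) = Nat.card G := by
    rw [mul_comm, ← Subgroup.card_eq_card_quotient_mul_card_subgroup]
  have hNM : Nat.card N ∣ Nat.card M :=
    (Subgroup.card_map_dvd D π).trans (Subgroup.card_dvd_of_le hDM)
  have hsmall : Nat.card N < 60 ^ 5 := by
    have h1 : Nat.card N ≤ Nat.card M := Nat.le_of_dvd Nat.card_pos hNM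
    rw [← hcM] at hbig
    exact h1.trans_lt (Nat.lt_of_mul_lt_mul_right hbig)
  obtain ⟨hNs, hNc⟩ := simple_of_small hX N hmin hna hsmall
  have hNna : ¬ ∀ a b : N, a * b = b * a := fun hcon => hna fun x hx y hy =>
    congrArg Subtype.val (hcon ⟨x, hx⟩ ⟨y, hy⟩)
  have hconj : Function.Injective (MulAut.conj : N →* MulAut N) := by
    rw [injective_iff_map_eq_one]
    intro z hz
    apply Subtype.ext
    apply hNc z z.2
    intro t ht
    have h1 : z * ⟨t, ht⟩ * z⁻¹ = ⟨t, ht⟩ := by
      have := DFunLike.congr_fun hz (⟨t, ht⟩ : N)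
      exact this
    have h2 : z * ⟨t, ht⟩ = ⟨t, ht⟩ * z := mul_inv_eq_iff_eq_mul.1 h1
    exact congrArg Subtype.val h2
  let φ : (G ⧸ L) →* MulAut N := MulAut.conjNormal
  have hrange : ⁅φ.range, φ.range⁆ = φ.range := by
    rw [MonoidHom.range_eq_map, ← Subgroup.map_commutator]
    congr 1
    exact hX.commutator_eq_top
  have hle : φ.range ≤ (MulAut.conj : N →* MulAut N).range := hSch N hNs hNna φ.range hrange
  let f : G →* (MulAut.conj : N →* MulAut N).range :=
    (φ.comp π).codRestrict _ (fun g => hle ⟨π g, rfl⟩)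
  have hf : Function.Surjective f := by
    rintro ⟨_, n, rfl⟩
    obtain ⟨g, hg⟩ := hπ n.1
    refine ⟨g, ?_⟩
    apply Subtype.ext
    show φ (π g) = MulAut.conj n
    rw [hg]
    ext x
    show ((MulAut.conjNormal (n : G ⧸ L) x : N) : G ⧸ L) = ((MulAut.conj n x : N) : G ⧸ L)
    rw [MulAut.conjNormal_apply]
    rfl
  let e : N ≃* (MulAut.conj : N →* MulAut N).range := MonoidHom.ofInjective hconj
  have hTs : IsSimpleGroup (MulAut.conj : N →* MulAut N).range := simple_of_equiv hNs e
  apply hno (MulAut.conj : N →* MulAut N).range f hf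
  · intro hcon
    apply hNna
    intro a b
    apply e.injective
    rw [map_mul, map_mul]
    exact hcon _ _
  · rw [← Nat.card_congr e.toEquiv, ← hcM]
    exact Nat.mul_dvd_mul_right hNM _

end

end Cfsg.Agent.H456.DM.Solv
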